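import Mathlib.Data.ZMod.QuotientGroup
import Mathlib.GroupTheory.GroupAction.Period
import Mathlib.GroupTheory.GroupAction.Quotient
import Mathlib.SetTheory.Cardinal.Finite
import Mathlib.Tactic.LinearCombination
import Mathlib.Data.Finset.Sort
import Groth.Agent.Pi1.H611.Universal

/-!
# Orbits of an element on an equivariant map of sets, and the count of points over a puncture

`σ ∈ Γ` acts on `T`, `σ' ∈ Γ'` acts on `T'`, `f : T' → T` is equivariant.  Over the orbit of `t₀ ∈ T`, of
length `m = period σ t₀`, the orbits of `σ'` are the orbits of `σ' ^ m` on the fibre of `f` over `t₀`.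
-/

set_option autoImplicit false

universe u u' v v'

namespace Groth.Agent.Pi1.H402.Cnt

open MulAction

/-- the orbits of an element -/
abbrev Q {Γ : Type u} [Group Γ] (σ : Γ) (T : Type v) [MulAction Γ T] : Type v :=
  orbitRel.Quotient (Subgroup.zpowers σ) T

section basic

variable {Γ : Type u} [Group Γ] {T : Type v} [MulAction Γ T] (σ : Γ)

/-- the orbit of an element -/
abbrev mk (t : T) : Q σ T := Quotient.mk'' t

theorem mk_eq_iff (t t' : T) : mk σ t = mk σ t' ↔ ∃ k : ℤ, σ ^ k • t' = t := by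
  constructor
  · intro h
    obtain ⟨⟨τ, hτ⟩, h'⟩ := (Quotient.exact' h : t ∈ orbit (Subgroup.zpowers σ) t')
    obtain ⟨k, rfl⟩ := Subgroup.mem_zpowers_iff.1 hτ
    exact ⟨k, h'⟩
  · rintro ⟨k, rfl⟩
    exact Quotient.sound' (⟨⟨σ ^ k, Subgroup.zpow_mem_zpowers σ k⟩, rfl⟩ :
      (σ ^ k) • t' ∈ orbit (Subgroup.zpowers σ) t')

theorem mk_zpow_smul (k : ℤ) (t : T) : mk σ (σ ^ k • t) = mk σ t := (mk_eq_iff σ _ _).2 ⟨k, rfl⟩

theorem mk_smul (t : T) : mk σ (σ • t) = mk σ t := by simpa using mk_zpow_smul σ 1 t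

theorem mk_pow_smul (k : ℕ) (t : T) : mk σ (σ ^ k • t) = mk σ t := by
  simpa using mk_zpow_smul σ k t

theorem ind {P : Q σ T → Prop} (h : ∀ t, P (mk σ t)) (o : Q σ T) : P o := Quotient.inductionOn' o h

/-- Two elements acting by the same permutation have the same orbits. -/
def congrEquiv {Γ₂ : Type u'} [Group Γ₂] [MulAction Γ₂ T] (σ₂ : Γ₂) (h : ∀ t : T, σ • t = σ₂ • t) :
    Q σ T ≃ Q σ₂ T :=
  have h' : ∀ (k : ℤ) (t : T), σ ^ k • t = σ₂ ^ k • t := by
    have hn : ∀ (k : ℕ) (t : T), σ ^ k • t = σ₂ ^ k • t := by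
      intro k
      induction k with
      | zero => simp
      | succ k ih => intro t; rw [pow_succ', pow_succ', mul_smul, mul_smul, ih, h]
    intro k t
    obtain ⟨n, rfl | rfl⟩ := k.eq_nat_or_neg
    · simpa using hn n t
    · rw [zpow_neg, zpow_neg, zpow_natCast, zpow_natCast, inv_smul_eq_iff, hn, smul_inv_smul]
  { toFun := Quotient.map' id fun t t' (ht : orbitRel _ _ t t') => by
      obtain ⟨k, hk⟩ := (mk_eq_iff σ t t').1 (Quotient.sound' ht)
      exact Quotient.exact' ((mk_eq_iff σ₂ _ _).2 ⟨k, by rw [id, id, ← h', hk]⟩)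
    invFun := Quotient.map' id fun t t' (ht : orbitRel _ _ t t') => by
      obtain ⟨k, hk⟩ := (mk_eq_iff σ₂ t t').1 (Quotient.sound' ht)
      exact Quotient.exact' ((mk_eq_iff σ _ _).2 ⟨k, by rw [id, id, h', hk]⟩)
    left_inv := fun o => Quotient.inductionOn' o fun _ => rfl
    right_inv := fun o => Quotient.inductionOn' o fun _ => rfl }

@[simp] theorem congrEquiv_mk {Γ₂ : Type u'} [Group Γ₂] [MulAction Γ₂ T] (σ₂ : Γ₂)
    (h : ∀ t : T, σ • t = σ₂ • t) (t : T) : congrEquiv σ σ₂ h (mk σ t) = mk σ₂ t := rfl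

@[simp] theorem congrEquiv_symm_mk {Γ₂ : Type u'} [Group Γ₂] [MulAction Γ₂ T] (σ₂ : Γ₂)
    (h : ∀ t : T, σ • t = σ₂ • t) (t : T) : (congrEquiv σ σ₂ h).symm (mk σ₂ t) = mk σ t := rfl

theorem zpow_smul_eq_self_iff (k : ℤ) (t : T) : σ ^ k • t = t ↔ (period σ t : ℤ) ∣ k := by
  rw [zpow_smul_eq_iff_period_dvd]

theorem period_pos [Finite T] (t : T) : 0 < period σ t := by
  have h := period_pos_of_orderOf_pos (m := toPermHom Γ T σ) (orderOf_pos _) t
  rw [show period σ t = period (toPermHom Γ T σ) t from ?_]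
  · exact h
  · rfl

end basic

section map

variable {Γ : Type u} [Group Γ] {T : Type v} [MulAction Γ T] {σ : Γ}
  {Γ' : Type u'} [Group Γ'] {T' : Type v'} [MulAction Γ' T'] {σ' : Γ'}
  (f : T' → T) (hf : ∀ e, f (σ' • e) = σ • f e)

include hf in
theorem map_pow_smul (k : ℕ) (e : T') : f (σ' ^ k • e) = σ ^ k • f e := by
  induction k generalizing e with
  | zero => simp
  | succ k ih => rw [pow_succ', mul_smul, hf, ih, pow_succ', mul_smul]

include hf in
theorem map_zpow_smul (k : ℤ) (e : T') : f (σ' ^ k • e) = σ ^ k • f e := by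
  obtain ⟨n, rfl | rfl⟩ := k.eq_nat_or_neg
  · simpa using map_pow_smul f hf n e
  · rw [zpow_neg, zpow_neg, zpow_natCast, zpow_natCast, eq_inv_smul_iff, ← map_pow_smul f hf,
      smul_inv_smul]

/-- the map on orbits -/
def map : Q σ' T' → Q σ T :=
  Quotient.map' f fun e e' h => by
    obtain ⟨k, hk⟩ := (mk_eq_iff σ' e e').1 (Quotient.sound' h)
    exact Quotient.exact' ((mk_eq_iff σ _ _).2 ⟨k, by rw [← map_zpow_smul f hf, hk]⟩)

@[simp] theorem map_mk (e : T') : map f hf (mk σ' e) = mk σ (f e) := rfl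

variable (t₀ : T)

/-- the orbits over the orbit of `t₀` -/
abbrev Over : Type v' := {o : Q σ' T' // map f hf o = mk σ t₀}

/-- the orbit of an element of the fibre -/
def toOver (e : {e : T' // f e = t₀}) : Over f hf t₀ := ⟨mk σ' e.1, by rw [map_mk, e.2]⟩

theorem toOver_surjective : Function.Surjective (toOver f hf t₀) := by
  rintro ⟨o, ho⟩
  induction o using ind with
  | h e =>
    rw [map_mk] at ho
    obtain ⟨k, hk⟩ := (mk_eq_iff σ _ _).1 ho
    refine ⟨⟨σ' ^ (-k) • e, ?_⟩, ?_⟩
    · rw [map_zpow_smul f hf, ← hk, smul_smul, ← zpow_add, neg_add_cancel, zpow_zero, one_smul]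
    · exact Subtype.ext (mk_zpow_smul σ' _ _)

/-- The permutation `σ' ^ period σ t₀` of the fibre over `t₀`. -/
noncomputable def tau : Equiv.Perm {e : T' // f e = t₀} where
  toFun e := ⟨σ' ^ period σ t₀ • e.1, by rw [map_pow_smul f hf, e.2, pow_period_smul]⟩
  invFun e := ⟨(σ' ^ period σ t₀)⁻¹ • e.1, by
    have h := map_zpow_smul f hf (-(period σ t₀ : ℤ)) e.1
    rw [zpow_neg, zpow_neg, zpow_natCast, zpow_natCast] at h
    rw [h, e.2, inv_smul_eq_iff, pow_period_smul]⟩
  left_inv e := Subtype.ext (inv_smul_smul _ _)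
  right_inv e := Subtype.ext (smul_inv_smul _ _)

@[simp] theorem tau_val (e : {e : T' // f e = t₀}) :
    (tau f hf t₀ e).1 = σ' ^ period σ t₀ • e.1 := rfl

theorem tau_zpow_val (k : ℤ) (e : {e : T' // f e = t₀}) :
    ((tau f hf t₀ ^ k) e).1 = (σ' ^ period σ t₀) ^ k • e.1 := by
  have hn : ∀ (k : ℕ) (e : {e : T' // f e = t₀}),
      ((tau f hf t₀ ^ k) e).1 = (σ' ^ period σ t₀) ^ k • e.1 := by
    intro k
    induction k with
    | zero => simp
    | succ k ih =>
      intro e
      rw [pow_succ', Equiv.Perm.mul_apply, tau_val, ih, pow_succ' (σ' ^ period σ t₀), mul_smul]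
  obtain ⟨n, rfl | rfl⟩ := k.eq_nat_or_neg
  · simpa using hn n e
  · rw [zpow_neg, zpow_neg, zpow_natCast, zpow_natCast, eq_inv_smul_iff, ← hn,
      ← Equiv.Perm.mul_apply, mul_inv_cancel, Equiv.Perm.one_apply]

theorem toOver_eq_iff (e e' : {e : T' // f e = t₀}) :
    toOver f hf t₀ e = toOver f hf t₀ e' ↔ ∃ k : ℤ, (tau f hf t₀ ^ k) e' = e := by
  rw [Subtype.ext_iff]
  show mk σ' e.1 = mk σ' e'.1 ↔ _
  rw [mk_eq_iff]
  constructor
  · rintro ⟨k, hk⟩
    have h1 : σ ^ k • t₀ = t₀ := by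
      have := congrArg f hk
      rwa [map_zpow_smul f hf, e.2, e'.2] at this
    obtain ⟨j, rfl⟩ := (zpow_smul_eq_self_iff σ k t₀).1 h1
    refine ⟨j, Subtype.ext ?_⟩
    rw [tau_zpow_val, ← hk, zpow_mul, zpow_natCast]
  · rintro ⟨j, hj⟩
    refine ⟨period σ t₀ * j, ?_⟩
    rw [← hj, tau_zpow_val, zpow_mul, zpow_natCast]

/-- **Orbits over the orbit of `t₀` = orbits of `σ' ^ m` on the fibre over `t₀`.** -/
noncomputable def overEquiv : Q (tau f hf t₀) {e : T' // f e = t₀} ≃ Over f hf t₀ :=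
  Equiv.ofBijective
    (Quotient.lift (toOver f hf t₀) fun e e' (h : orbitRel _ _ e e') => by
      obtain ⟨k, hk⟩ := (mk_eq_iff (tau f hf t₀) e e').1 (Quotient.sound' h)
      exact (toOver_eq_iff f hf t₀ e e').2 ⟨k, hk⟩)
    (by
      constructor
      · intro o o' h
        induction o using ind with
        | h e =>
          induction o' using ind with
          | h e' =>
            obtain ⟨k, hk⟩ := (toOver_eq_iff f hf t₀ e e').1 h
            exact (mk_eq_iff _ _ _).2 ⟨k, hk⟩
      · intro o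
        obtain ⟨e, rfl⟩ := toOver_surjective f hf t₀ o
        exact ⟨mk _ e, rfl⟩)

@[simp] theorem overEquiv_mk (e : {e : T' // f e = t₀}) :
    overEquiv f hf t₀ (mk _ e) = toOver f hf t₀ e := rfl

theorem card_over_le [Finite {e : T' // f e = t₀}] :
    Nat.card (Over f hf t₀) ≤ Nat.card {e : T' // f e = t₀} :=
  Nat.card_le_card_of_surjective _ (toOver_surjective f hf t₀)

theorem finite_over [Finite {e : T' // f e = t₀}] : Finite (Over f hf t₀) :=
  Finite.of_surjective _ (toOver_surjective f hf t₀)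

include hf in
/-- triviality on the fibre over `t₀` and over its whole orbit are equivalent -/
theorem triv_iff :
    (∀ e : T', f e = t₀ → σ' ^ period σ t₀ • e = e) ↔
      ∀ e : T', mk σ (f e) = mk σ t₀ → σ' ^ period σ t₀ • e = e := by
  constructor
  · intro h e he
    obtain ⟨k, hk⟩ := (mk_eq_iff σ _ _).1 he
    have h1 : f (σ' ^ (-k) • e) = t₀ := by
      rw [map_zpow_smul f hf, ← hk, smul_smul, ← zpow_add, neg_add_cancel, zpow_zero, one_smul]
    have h2 := h _ h1
    rw [smul_smul, ← zpow_natCast, ← zpow_add, add_comm, zpow_add, mul_smul, zpow_natCast] at h2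
    exact smul_left_cancel _ h2
  · intro h e he
    exact h e (by rw [he])

/-- **The number of orbits over the orbit of `t₀` is the number of points of the fibre over `t₀` if and
only if `σ' ^ m` acts trivially over that orbit.** -/
theorem card_over_eq_iff [Finite {e : T' // f e = t₀}] :
    Nat.card (Over f hf t₀) = Nat.card {e : T' // f e = t₀} ↔
      ∀ e : T', mk σ (f e) = mk σ t₀ → σ' ^ period σ t₀ • e = e := by
  rw [← triv_iff f hf t₀]
  have := finite_over f hf t₀
  constructor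
  · intro h e he
    have hb : Function.Bijective (toOver f hf t₀) :=
      (Nat.bijective_iff_surjective_and_card _).2 ⟨toOver_surjective f hf t₀, h.symm⟩
    have h1 : toOver f hf t₀ (tau f hf t₀ ⟨e, he⟩) = toOver f hf t₀ ⟨e, he⟩ :=
      (toOver_eq_iff f hf t₀ _ _).2 ⟨1, by rw [zpow_one]⟩
    exact congrArg Subtype.val (hb.1 h1)
  · intro h
    refine (Nat.card_congr (Equiv.ofBijective (toOver f hf t₀)
      ⟨fun e e' hee => ?_, toOver_surjective f hf t₀⟩)).symm
    obtain ⟨k, hk⟩ := (toOver_eq_iff f hf t₀ e e').1 hee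
    have h1 : tau f hf t₀ = 1 := Equiv.ext fun e => Subtype.ext (h e.1 e.2)
    rw [h1, one_zpow, Equiv.Perm.one_apply] at hk
    exact hk.symm

/-- the form with an arbitrary representative: if the orbit `c` has the representative `t₀` -/
theorem card_fibre_map_eq_iff (c : Q σ T) (hc : mk σ t₀ = c) [Finite {e : T' // f e = t₀}] :
    Nat.card {o : Q σ' T' // map f hf o = c} = Nat.card {e : T' // f e = t₀} ↔
      ∀ e : T', mk σ (f e) = c → σ' ^ period σ t₀ • e = e := by
  subst hc
  exact card_over_eq_iff f hf t₀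

end map

section transitive

variable {Γ : Type u} [Group Γ] {T : Type v} [MulAction Γ T] {T' : Type v'} [MulAction Γ T']
  (f : T' → T) (hf : ∀ (γ : Γ) (e : T'), f (γ • e) = γ • f e)

/-- translation of a fibre -/
def fibreEquiv (γ : Γ) (t : T) : {e : T' // f e = t} ≃ {e : T' // f e = γ • t} where
  toFun e := ⟨γ • e.1, by rw [hf, e.2]⟩
  invFun e := ⟨γ⁻¹ • e.1, by rw [hf, e.2, inv_smul_smul]⟩
  left_inv e := Subtype.ext (inv_smul_smul _ _)
  right_inv e := Subtype.ext (smul_inv_smul _ _)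

include hf in
/-- the fibres of an equivariant map to a transitive set have the same cardinality -/
theorem card_fibre_eq [IsPretransitive Γ T] (t t' : T) :
    Nat.card {e : T' // f e = t} = Nat.card {e : T' // f e = t'} := by
  obtain ⟨γ, rfl⟩ := exists_smul_eq Γ t t'
  exact Nat.card_congr (fibreEquiv f hf γ t)

include hf in
theorem card_eq_mul [IsPretransitive Γ T] [Finite T] (t : T) :
    Nat.card T' = Nat.card T * Nat.card {e : T' // f e = t} := by
  have h := Nat.card_congr (Equiv.sigmaFiberEquiv f)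
  have := Fintype.ofFinite T
  rcases finite_or_infinite {e : T' // f e = t} with hfin | hinf
  · have : ∀ t', Finite {e : T' // f e = t'} := fun t' => by
      obtain ⟨γ, rfl⟩ := exists_smul_eq Γ t t'
      exact Finite.of_equiv _ (fibreEquiv f hf γ t)
    rw [← h, Nat.card_sigma, Finset.sum_congr rfl fun t' _ => card_fibre_eq f hf t' t]
    simp [Nat.card_eq_fintype_card]
  · have : Infinite T' := Infinite.of_injective (Subtype.val : {e : T' // f e = t} → T')
      Subtype.val_injective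
    simp

include hf in
/-- **Translation to the stabiliser.**  `σ ^ m` acts trivially over the orbit of `u • o` if and only if
`u⁻¹ * σ ^ m * u` acts trivially on the fibre over `o`. -/
theorem triv_conj_iff (σ u : Γ) (o : T) (k : ℕ) :
    (∀ e : T', f e = u • o → σ ^ k • e = e) ↔
      ∀ e : T', f e = o → (u⁻¹ * σ ^ k * u) • e = e := by
  constructor
  · intro h e he
    rw [mul_smul, mul_smul, h (u • e) (by rw [hf, he]), inv_smul_smul]
  · intro h e he
    have h1 := h (u⁻¹ • e) (by rw [hf, he, inv_smul_smul])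
    rw [mul_smul, mul_smul, smul_inv_smul] at h1
    exact smul_left_cancel _ h1

include hf in
/-- The same over the whole orbit. -/
theorem triv_orbit_iff (σ u : Γ) (o : T) :
    (∀ e : T', mk σ (f e) = mk σ (u • o) → σ ^ period σ (u • o) • e = e) ↔
      ∀ e : T', f e = o → (u⁻¹ * σ ^ period σ (u • o) * u) • e = e := by
  rw [← triv_iff (σ := σ) (σ' := σ) f (hf σ) (u • o), triv_conj_iff f hf]

include hf in
/-- **The count in terms of the stabiliser**: for `c` an orbit of `σ` on `T`, `u • o ∈ c`, the number of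
orbits of `σ` on `T'` over `c` is the number of points of `T'` over `o` if and only if
`u⁻¹ * σ ^ m * u` (`m = period σ (u • o)`) acts trivially on the fibre of `f` over `o`. -/
theorem card_eq_iff_stab (σ u : Γ) (o : T) [Finite {e : T' // f e = o}] (c : Q σ T)
    (hc : mk σ (u • o) = c) :
    Nat.card {o' : Q σ T' // map (σ := σ) (σ' := σ) f (hf σ) o' = c} =
        Nat.card {e : T' // f e = o} ↔
      ∀ e : T', f e = o → (u⁻¹ * σ ^ period σ (u • o) * u) • e = e := by
  have : Finite {e : T' // f e = u • o} := Finite.of_equiv _ (fibreEquiv f hf u o)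
  rw [Nat.card_congr (fibreEquiv f hf u o),
    card_fibre_map_eq_iff (σ := σ) (σ' := σ) f (hf σ) (u • o) c hc, ← hc, triv_orbit_iff f hf]

end transitive

section numeric

/-- the comparison of the two counts -/
theorem genus_eq {g g' n' d k : ℕ} (h1 : 2 * (g : ℤ) - 2 = ((k : ℤ) - 1) * d - n')
    (h2 : 2 * g' + n' + d = d * k + 2) : g' = g := by
  have h3 : (2 * (g' : ℤ) + n' + d) = d * k + 2 := by exact_mod_cast h2
  have h4 : (2 : ℤ) * g' = 2 * g := by linear_combination h3 - h1
  omega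

/-- **Enumeration of the unfilled punctures.**  `V ⊆ U ⊆ X`, the points outside `V` are enumerated by
`P`, which is enumerated by `Fin n'`; the points outside `U` are `n` in number. -/
theorem exists_nu {X : Type u} {V U : Set X} (hVU : V ⊆ U) {P : Type v} {n n' : ℕ}
    (e : Fin n' ≃ P) (pt : ↥(Vᶜ) ≃ P) (hn : Nat.card ↥(Uᶜ) = n) :
    ∃ ν : Fin n → Fin n', StrictMono ν ∧
      ∀ j, j ∈ Set.range ν ↔ ((pt.symm (e j) : ↥(Vᶜ)) : X) ∉ U := by
  obtain ⟨m, ν, hν, hr, hm⟩ := Groth.Agent.Pi1.H611.Universal.exists_enum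
    {j : Fin n' | ((pt.symm (e j) : ↥(Vᶜ)) : X) ∉ U}
  have h1 : Nat.card {j : Fin n' | ((pt.symm (e j) : ↥(Vᶜ)) : X) ∉ U} = Nat.card ↥(Uᶜ) := by
    refine Nat.card_congr
      { toFun := fun j => ⟨(pt.symm (e j.1) : ↥(Vᶜ)), j.2⟩
        invFun := fun x => ⟨e.symm (pt ⟨x.1, fun hx => x.2 (hVU hx)⟩), by
          show ((pt.symm (e (e.symm _)) : ↥(Vᶜ)) : X) ∉ U
          rw [e.apply_symm_apply, pt.symm_apply_apply]
          exact x.2⟩
        left_inv := fun j => Subtype.ext (by simp)
        right_inv := fun x => Subtype.ext (by simp) }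
  have h2 : m = n := by rw [hm, h1, hn]
  subst h2
  exact ⟨ν, hν, fun j => by rw [hr]; rfl⟩

end numeric

end Groth.Agent.Pi1.H402.Cnt
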